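import Cfsg.Agent.CosetEnum.Fi24.Class
import Cfsg.Agent.CosetEnum.Fi24.Simple
import Cfsg.Prelude.Def_Sporadic

/-!
The largest Fischer group as a group of 3-transpositions, given a subgroup He of its simple subgroup.
-/

set_option autoImplicit false

namespace CfsgLib.CosetEnum.Fi24

theorem isFi23_range {G : Type*} [Group G] (K : Subgroup G) (e : Cfsg.Spor.Fi23 ≃* K) :
    Cfsg.IsFi23 K := by
  have := Fi23.simple
  have : Nontrivial K := e.symm.toEquiv.nontrivial
  exact ⟨IsSimpleGroup.isSimpleGroup_of_surjective e.toMonoidHom e.surjective,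
    (Nat.card_congr e.toEquiv).symm.trans Fi23.card_fi23⟩

variable (h : ChecksOK)
include h

theorem exists_Fi23_even : ∃ K : Subgroup (parity.ker : Subgroup Cfsg.Spor.Fi24), Cfsg.IsFi23 K := by
  let f : Cfsg.Spor.Fi23 →* (parity.ker : Subgroup Cfsg.Spor.Fi24) :=
    psi.codRestrict _ fun u => parity_psi u
  have hf : Function.Injective f := fun u v e => psi_inj h (congrArg Subtype.val e)
  exact ⟨f.range, isFi23_range _ (MonoidHom.ofInjective hf)⟩

theorem isFi24'_ker : Cfsg.IsFi24' (parity.ker : Subgroup Cfsg.Spor.Fi24) :=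
  commutator_eq ▸ ⟨simple_commutator h, card_commutator h⟩

theorem index_ker : (parity.ker : Subgroup Cfsg.Spor.Fi24).index = 2 := by
  have e := (parity.ker : Subgroup Cfsg.Spor.Fi24).card_mul_index
  rw [(isFi24'_ker h).2, card_Fi24 h] at e
  omega

theorem realization (he : ∃ K : Subgroup (parity.ker : Subgroup Cfsg.Spor.Fi24), Cfsg.IsHe K) :
    ∃ (G : Type) (_ : Group G) (_ : Finite G), Nat.card G = 2 * 1255205709190661721292800 ∧
      ∃ D : Set G, Cfsg.IsThreeTranspositionClass D ∧ Nat.card D = 306936 ∧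
        (∀ d ∈ D, Nat.card (Subgroup.centralizer ({d} : Set G)) = 2 * 4089470473293004800 ∧
          ∃ K : Subgroup G, K ≤ Subgroup.centralizer ({d} : Set G) ∧ Cfsg.IsFi23 K) ∧
        ∃ H : Subgroup G, H.index = 2 ∧ Cfsg.IsFi24' H ∧ (∃ K : Subgroup H, Cfsg.IsFi23 K) ∧
          (∃ K : Subgroup H, Cfsg.IsHe K) := by
  refine ⟨Cfsg.Spor.Fi24, inferInstance, finite_Fi24 h, ?_, transClass, isThreeTransposition h,
    card_transClass h, fun d hd => ?_, parity.ker, index_ker h, isFi24'_ker h, exists_Fi23_even h, he⟩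
  · rw [card_Fi24 h]
  · obtain ⟨hc, K, hK, ⟨e⟩⟩ := centralizer_transClass h hd
    exact ⟨hc, K, hK, isFi23_range K e⟩

end CfsgLib.CosetEnum.Fi24
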